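import Mathlib

/-!
# Group-theoretic lemmas for the two-degree theorem (Isaacs 12.5)
-/

set_option autoImplicit false
set_option linter.unusedSectionVars false

namespace Cfsg.Agent.Lib.Helper60.Cd

/-- Two subgroups of the same finite index, one inside the other, coincide. -/
theorem eq_of_le_of_index_eq {G : Type*} [Group G] [Finite G] {H K : Subgroup G} (h : H ≤ K)
    (hi : H.index = K.index) : H = K := by
  have h1 := Subgroup.relIndex_mul_index h
  rw [hi] at h1
  have h2 : H.relIndex K = 1 := by
    have h3 : K.index ≠ 0 := Subgroup.index_ne_zero_of_finite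
    exact Nat.eq_of_mul_eq_mul_right (Nat.pos_of_ne_zero h3) (by rw [h1, one_mul])
  exact le_antisymm h (Subgroup.relIndex_eq_one.mp h2)

/-- A group acting on an abelian group so that all proper point stabilisers are normal of the same
index `m` and such that the action is "coprime": all proper stabilisers coincide. -/
theorem stab_le {G V : Type*} [Group G] [Finite G] [CommGroup V] (φ : G →* MulAut V)
    (S : V → Subgroup G) (hS : ∀ v g, g ∈ S v ↔ φ g v = v) (m : ℕ)
    (H1 : ∀ v, S v = ⊤ ∨ ((S v).Normal ∧ (S v).index = m))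
    (j e : ℕ) (hj : j.Coprime e) (he : ∀ v : V, v ^ e = 1) (H2 : ∀ g v, φ (g ^ j) v = v)
    (v w : V) (hv : S v ≠ ⊤) (hw : S w ≠ ⊤) : S v ≤ S w := by
  have hnorm : ∀ v, (S v).Normal := by
    intro v
    rcases H1 v with h | h
    · rw [h]; infer_instance
    · exact h.1
  have hidx : ∀ v, S v ≠ ⊤ → (S v).index = m := by
    intro v hv
    rcases H1 v with h | h
    · exact absurd h hv
    · exact h.2
  have heq : ∀ a b, S a ≠ ⊤ → S b ≠ ⊤ → S a ≤ S b → S a = S b := fun a b ha hb hab =>
    eq_of_le_of_index_eq hab (by rw [hidx a ha, hidx b hb])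
  intro t ht
  have htv : φ t v = v := (hS v t).mp ht
  have key : ∀ x, ∀ s ∈ S x, φ s (φ t x) = φ t x := by
    intro x s hs
    have h1 : t⁻¹ * s * t ∈ S x := by
      have := (hnorm x).conj_mem s hs t⁻¹
      simpa using this
    have h2 : s * t = t * (t⁻¹ * s * t) := by group
    calc φ s (φ t x) = φ (s * t) x := by rw [map_mul]; rfl
      _ = φ (t * (t⁻¹ * s * t)) x := by rw [← h2]
      _ = φ t (φ (t⁻¹ * s * t) x) := by rw [map_mul]; rfl
      _ = φ t x := by rw [(hS x _).mp h1]
  set ξ : V := φ t w * w⁻¹ with hξ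
  set u : V := v * w with hu
  have hξu : ξ = φ t u * u⁻¹ := by
    rw [hu, map_mul, htv, hξ, mul_inv]
    rw [mul_mul_mul_comm, mul_inv_cancel, one_mul]
  have hwξ : S w ≤ S ξ := by
    intro s hs
    rw [hS, hξ, map_mul, map_inv, key w s hs, (hS w s).mp hs]
  have huξ : S u ≤ S ξ := by
    intro s hs
    rw [hS, hξu, map_mul, map_inv, key u s hs, (hS u s).mp hs]
  by_cases hwu : S w ≤ S u
  · have h1 : S w ≤ S v := by
      intro s hs
      have h2 : v = u * w⁻¹ := by rw [hu, mul_inv_cancel_right]
      rw [hS, h2, map_mul, map_inv, (hS u s).mp (hwu hs), (hS w s).mp hs]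
    rw [heq w v hw hv h1]
    exact ht
  · have hξtop : S ξ = ⊤ := by
      by_contra hξn
      have h1 := heq w ξ hw hξn hwξ
      have h2 : S u ≤ S w := h1 ▸ huξ
      have h3 : S u ≠ ⊤ := by
        intro h
        rw [h] at h2
        exact hw (top_le_iff.mp h2)
      exact hwu (heq u w h3 hw h2).ge
    have hfix : ∀ g, φ g ξ = ξ := fun g => (hS ξ g).mp (hξtop ▸ Subgroup.mem_top g)
    have hpow : ∀ k : ℕ, φ (t ^ k) w = w * ξ ^ k := by
      intro k
      induction k with
      | zero => simp
      | succ k ih =>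
        have h1 : φ t w = ξ * w := by rw [hξ, inv_mul_cancel_right]
        calc φ (t ^ (k + 1)) w = φ (t ^ k) (φ t w) := by rw [pow_succ, map_mul]; rfl
          _ = φ (t ^ k) ξ * φ (t ^ k) w := by rw [h1, map_mul]
          _ = ξ * (w * ξ ^ k) := by rw [hfix, ih]
          _ = w * ξ ^ (k + 1) := by rw [pow_succ]; ac_rfl
    have h1 : ξ ^ j = 1 := by
      have := hpow j
      rw [H2] at this
      exact (mul_eq_left.mp this.symm)
    have h2 : ξ = 1 := by
      have h3 : orderOf ξ ∣ j := orderOf_dvd_of_pow_eq_one h1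
      have h4 : orderOf ξ ∣ e := orderOf_dvd_of_pow_eq_one (he ξ)
      exact orderOf_eq_one_iff.mp (Nat.eq_one_of_dvd_coprimes hj h3 h4)
    rw [hS]
    exact mul_inv_eq_one.mp (hξ ▸ h2)

/-- Intersecting normal `p`-complements for the primes of a finite set. -/
theorem exists_hall_inf {G : Type*} [Group G] [Finite G] (s : Finset ℕ)
    (hs : ∀ p ∈ s, p.Prime)
    (h : ∀ p ∈ s, ∃ N : Subgroup G, N.Normal ∧ (Nat.card N).Coprime p ∧ ∃ k : ℕ, N.index = p ^ k) :
    ∃ (N : Subgroup G) (_ : N.Normal), (∀ p ∈ s, (Nat.card N).Coprime p) ∧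
      Group.IsNilpotent (G ⧸ N) ∧ ∀ q : ℕ, q.Prime → q ∣ N.index → q ∈ s := by
  classical
  induction s using Finset.induction_on with
  | empty =>
    refine ⟨⊤, inferInstance, by simp, ?_, ?_⟩
    · have : Subsingleton (G ⧸ (⊤ : Subgroup G)) := QuotientGroup.subsingleton_quotient_top
      infer_instance
    · intro q hq hd
      rw [Subgroup.index_top] at hd
      exact absurd (Nat.dvd_one.mp hd) hq.one_lt.ne'
  | insert p s hp ih =>
    obtain ⟨N, hN, h1, h2, h3⟩ := ih (fun q hq => hs q (Finset.mem_insert_of_mem hq))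
      (fun q hq => h q (Finset.mem_insert_of_mem hq))
    obtain ⟨M, hM, hM1, k, hk⟩ := h p (Finset.mem_insert_self p s)
    have hpp : p.Prime := hs p (Finset.mem_insert_self p s)
    have := Fact.mk hpp
    refine ⟨M ⊓ N, inferInstance, ?_, ?_, ?_⟩
    · intro q hq
      rcases Finset.mem_insert.mp hq with rfl | hq
      · exact Nat.Coprime.coprime_dvd_left (Subgroup.card_dvd_of_le inf_le_left) hM1
      · exact Nat.Coprime.coprime_dvd_left (Subgroup.card_dvd_of_le inf_le_right) (h1 q hq)
    · have hMn : Group.IsNilpotent (G ⧸ M) := by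
        apply IsPGroup.isNilpotent (p := p)
        apply IsPGroup.of_card (n := k)
        rw [← Subgroup.index_eq_card, hk]
      let f : G →* (G ⧸ M) × (G ⧸ N) := (QuotientGroup.mk' M).prod (QuotientGroup.mk' N)
      have hker : ∀ x ∈ M ⊓ N, f x = 1 := by
        intro x hx
        ext
        · exact (QuotientGroup.eq_one_iff x).mpr hx.1
        · exact (QuotientGroup.eq_one_iff x).mpr hx.2
      let F : G ⧸ (M ⊓ N) →* (G ⧸ M) × (G ⧸ N) := QuotientGroup.lift (M ⊓ N) f hker
      apply Subgroup.isNilpotent_of_ker_le_center F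
      intro x hx
      induction x using QuotientGroup.induction_on with
      | H x =>
        have h4 : f x = 1 := hx
        have h5 : x ∈ M ⊓ N := by
          constructor
          · exact (QuotientGroup.eq_one_iff x).mp (congrArg Prod.fst h4)
          · exact (QuotientGroup.eq_one_iff x).mp (congrArg Prod.snd h4)
        rw [(QuotientGroup.eq_one_iff x).mpr h5]
        exact one_mem _
    · intro q hq hd
      have h4 : (M ⊓ N).index = M.relIndex N * N.index := by
        rw [← Subgroup.relIndex_mul_index (inf_le_right : M ⊓ N ≤ N), Subgroup.inf_relIndex_right]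
      rw [h4] at hd
      rcases (Nat.Prime.dvd_mul hq).mp hd with hd | hd
      · have h5 : q ∣ p ^ k := hk ▸ hd.trans (Subgroup.relIndex_dvd_index_of_normal M N)
        have h6 : q = p := (Nat.prime_dvd_prime_iff_eq hq hpp).mp (hq.dvd_of_dvd_pow h5)
        rw [h6]; exact Finset.mem_insert_self p s
      · exact Finset.mem_insert_of_mem (h3 q hq hd)

/-- A group which is abelian modulo a central subgroup of coprime index is abelian. -/
theorem comm_of_central_coprime {G : Type*} [Group G] (j e : ℕ) (hje : j.Coprime e) (x y : G)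
    (c : G) (hc : c = x * y * x⁻¹ * y⁻¹) (hcx : c * x = x * c) (hce : c ^ e = 1)
    (hxj : x ^ j * y = y * x ^ j) : x * y = y * x := by
  have hpow : ∀ k : ℕ, x ^ k * y = c ^ k * (y * x ^ k) := by
    intro k
    induction k with
    | zero => simp
    | succ k ih =>
      have h1 : x * y = c * (y * x) := by rw [hc]; group
      have hcxk : ∀ i : ℕ, x * c ^ i = c ^ i * x := fun i =>
        ((Commute.pow_left (show Commute c x from hcx) i).eq).symm
      calc x ^ (k + 1) * y = x * (x ^ k * y) := by rw [pow_succ']; group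
        _ = x * (c ^ k * (y * x ^ k)) := by rw [ih]
        _ = c ^ k * ((x * y) * x ^ k) := by rw [← mul_assoc, hcxk]; group
        _ = c ^ k * (c * (y * x) * x ^ k) := by rw [h1]
        _ = c ^ (k + 1) * (y * x ^ (k + 1)) := by rw [pow_succ, pow_succ']; group
  have h1 : c ^ j = 1 := by
    have := hpow j
    rw [hxj] at this
    exact (mul_eq_right.mp this.symm)
  have h2 : c = 1 := by
    have h3 : orderOf c ∣ j := orderOf_dvd_of_pow_eq_one h1
    have h4 : orderOf c ∣ e := orderOf_dvd_of_pow_eq_one hce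
    exact orderOf_eq_one_iff.mp (Nat.eq_one_of_dvd_coprimes hje h3 h4)
  rw [h2] at hc
  have : x * y = (x * y * x⁻¹ * y⁻¹) * (y * x) := by group
  rw [this, ← hc, one_mul]

end Cfsg.Agent.Lib.Helper60.Cd
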