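import Mathlib
import Cfsg.Agent.Lib.Helper5.DegHyp
import Cfsg.Agent.Lib.Helper77.CoprimeDeg2
import Cfsg.Agent.Lib.Helper83.CliffCorr
import Cfsg.Agent.S0856
import Cfsg.Agent.S0867

/-!
# Basic tools for character degree arguments (Isaacs, chapter 12)
-/

set_option autoImplicit false
set_option linter.unusedSectionVars false

namespace Cfsg.Agent.Lib.Helper60.Cd

open Cfsg Cfsg.Agent.Lib

/-- The degree of an irreducible character is at most the index of an abelian subgroup. -/
theorem degree_le_index_of_comm {G : Type*} [Group G] [Finite G] (A : Subgroup G)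
    (hA : ∀ a ∈ A, ∀ b ∈ A, a * b = b * a) (χ : IrrCharacter G) :
    charDegree (χ : G → ℂ) ≤ A.index := by
  classical
  have := Fintype.ofFinite G
  have hχc := Helper82.isIrr_isChar χ.2
  have hres : IsCharacter A (fun a : A => (χ : G → ℂ) a) := Helper20.isCharacter_restrict hχc A
  obtain ⟨lam, hlam⟩ := Helper82.exists_irr_constituent hres (Helper82.isIrr_one_ne_zero χ.2)
  have h1 : (lam : A → ℂ) 1 = 1 := Helper82.isIrr_one_eq_one_of_comm
    (fun a b => Subtype.ext (hA a a.2 b b.2)) lam.2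
  have h2 := Helper82.inner_indFun_ne_zero A hχc hlam
  have h3 := Helper82.degree_le_of_constituent
    (Helper19.isCharacter_indFun A _ (Helper82.isIrr_isChar lam.2)) χ.2 h2
  rw [Helper82.charDegree_indFun A (Helper82.isIrr_isChar lam.2)] at h3
  have h4 : charDegree (lam : A → ℂ) = 1 := by
    have := Helper82.isChar_one_eq (Helper82.isIrr_isChar lam.2)
    rw [h1] at this
    exact_mod_cast this.symm
  rw [h4, mul_one] at h3
  exact h3

/-- An invariant irreducible character of a normal Hall subgroup extends. -/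
theorem ext_of_coprime {X : Type*} [Group X] [Finite X] (K : Subgroup X) [hK : K.Normal]
    (hcop : (Nat.card K).Coprime K.index) {θ : K → ℂ} (hθ : IsIrrCharacter K θ)
    (hinv : ∀ (g : X) (n : K), θ ⟨g * n * g⁻¹, hK.conj_mem (n : X) n.2 g⟩ = θ n) :
    ∃ E : X → ℂ, IsIrrCharacter X E ∧ ∀ k : K, E k = θ k := by
  obtain ⟨d, hd1, hd2, _⟩ := Helper77.irr_degree_dvd hθ
  obtain ⟨f, hf⟩ := Helper19.exists_detChar_hom (Helper82.isIrr_isChar hθ)
  have hdo : detOrder θ ∣ Nat.card K := by
    unfold detOrder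
    rw [hf, Helper19.orderOf_homFun]
    apply orderOf_dvd_of_pow_eq_one
    ext k
    rw [MonoidHom.pow_apply, ← map_pow, pow_card_eq_one']
    simp
  have hc : Nat.Coprime K.index (detOrder θ * d) :=
    Nat.Coprime.mul_right (Nat.Coprime.coprime_dvd_right hdo hcop.symm)
      (Nat.Coprime.coprime_dvd_right hd2 hcop.symm)
  obtain ⟨E, ⟨h1, h2, _⟩, _⟩ := Cfsg.Agent.S0867.result K θ hθ hinv d hd1 hc
  exact ⟨E, h1, h2⟩

/-- **Degrees over a character of a normal Hall subgroup.**  If `N` is a normal Hall subgroup,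
`θ ∈ Irr(N)` has inertia group `T` and `β ∈ Irr(T/N)`, then `|G:T| β(1) θ(1)` is a character degree
of `G`. -/
theorem exists_degree_over {G : Type*} [Group G] [Finite G] {N : Subgroup G} (hN : N.Normal)
    (hcop : (Nat.card N).Coprime N.index) {θ : N → ℂ} (hθ : IsIrrCharacter N θ)
    (T : Subgroup G) (hT : T = Helper5.inertia hN θ)
    (β : IrrCharacter (↥T ⧸ N.subgroupOf T)) :
    ∃ χ : IrrCharacter G, charDegree (χ : G → ℂ) =
      T.index * (charDegree β.1 * charDegree θ) := by
  classical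
  have := Fintype.ofFinite G
  have hNT : N ≤ T := hT ▸
    Helper5.le_inertia hN (Helper82.isChar_isClassFunction (Helper82.isIrr_isChar hθ))
  have hK : (N.subgroupOf T).Normal := inferInstance
  let e : N.subgroupOf T ≃* N := Subgroup.subgroupOfEquivOfLe hNT
  let θ' : N.subgroupOf T → ℂ := fun x => θ ⟨((x : T) : G), Subgroup.mem_subgroupOf.mp x.2⟩
  have hθ' : IsIrrCharacter (N.subgroupOf T) θ' := Helper5.isIrrCharacter_comp_equiv e hθ
  have hcop' : (Nat.card (N.subgroupOf T)).Coprime (N.subgroupOf T).index := by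
    rw [Nat.card_congr e.toEquiv]
    exact Nat.Coprime.coprime_dvd_right (Subgroup.relIndex_dvd_index_of_normal N T) hcop
  have hinv : ∀ (g : T) (n : N.subgroupOf T),
      θ' ⟨g * n * g⁻¹, hK.conj_mem (n : T) n.2 g⟩ = θ' n := by
    intro g n
    exact (Helper5.mem_inertia' hN θ g).mp (hT ▸ g.2) ⟨((n : T) : G), Subgroup.mem_subgroupOf.mp n.2⟩
  obtain ⟨E, hE, hEθ⟩ := ext_of_coprime (N.subgroupOf T) hcop' hθ' hinv
  -- inflate β
  let β' : T → ℂ := fun t => β.1 (t : T ⧸ N.subgroupOf T)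
  have hβ' : IsIrrCharacter T β' := Helper82.isIrr_inflate β.2
  have h1irr : IsIrrCharacter (N.subgroupOf T) (fun _ => (1 : ℂ)) := Helper83.isIrr_trivial
  have hone : ((fun _ => (1 : ℂ)) * θ' : N.subgroupOf T → ℂ) = θ' := by
    funext x; simp
  have hbij := Cfsg.Agent.S0856.result (N.subgroupOf T) (fun _ => (1 : ℂ)) θ' h1irr hθ'
    (fun _ _ => rfl) hinv (by rw [hone]; exact hθ') E hE hEθ
  have hmem : β' ∈ {β : T → ℂ | IsIrrCharacter T β ∧
      classInner (indFun (N.subgroupOf T) (fun _ => (1 : ℂ))) β ≠ 0} := by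
    refine ⟨hβ', ?_⟩
    apply Helper82.inner_indFun_ne_zero _ (Helper82.isIrr_isChar hβ')
    have hc : (fun x : N.subgroupOf T => β' x) = fun _ => β' 1 := by
      funext x
      show β.1 (((x : T)) : T ⧸ N.subgroupOf T) = β.1 ((1 : T) : T ⧸ N.subgroupOf T)
      have hx : (((x : T)) : T ⧸ N.subgroupOf T) = 1 := (QuotientGroup.eq_one_iff _).mpr x.2
      rw [hx, QuotientGroup.mk_one]
    rw [hc]
    unfold classInner
    have hcard : (Nat.card (N.subgroupOf T) : ℂ) ≠ 0 := by exact_mod_cast Nat.card_pos.ne'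
    simp only [map_one, mul_one, Finset.sum_const, Finset.card_univ, nsmul_eq_mul,
      ← Nat.card_eq_fintype_card]
    rw [← mul_assoc, inv_mul_cancel₀ hcard, one_mul]
    exact Helper82.isIrr_one_ne_zero hβ'
  obtain ⟨hψ, hψ0⟩ : IsIrrCharacter T (β' * E) ∧
      classInner (indFun (N.subgroupOf T) ((fun _ => (1 : ℂ)) * θ')) (β' * E) ≠ 0 := hbij.mapsTo hmem
  rw [hone] at hψ0
  have := Helper82.finite_irrCharacter (G := T)
  have := Fintype.ofFinite (IrrCharacter T)
  have hcc := (Helper83.clifford_corr N θ hθ T (fun g => by rw [hT]; exact Helper5.mem_inertia' hN θ g) hNT).1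
    ⟨β' * E, hψ⟩ hψ0
  refine ⟨⟨_, hcc⟩, ?_⟩
  show charDegree (indFun T (β' * E)) = _
  rw [Helper82.charDegree_indFun T (Helper82.isIrr_isChar hψ)]
  congr 1
  have h1 := Helper82.isChar_one_eq (Helper82.isIrr_isChar hψ)
  have h2 := Helper82.isChar_one_eq (Helper82.isIrr_isChar β.2)
  have h3 := Helper82.isChar_one_eq (Helper82.isIrr_isChar hθ)
  have h4 : (β' * E) 1 = β.1 1 * θ 1 := by
    show β' 1 * E 1 = _
    have := hEθ 1
    rw [show E 1 = θ' 1 from this]
    rfl
  rw [h4, h2, h3] at h1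
  exact_mod_cast h1.symm

end Cfsg.Agent.Lib.Helper60.Cd
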