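import Mathlib
import Cfsg.Agent.Lib.Helper60.CdBasic
import Cfsg.Agent.Lib.Helper60.CdAct
import Cfsg.Agent.Lib.Helper41.SchurMono
import Cfsg.Agent.S4456
import Cfsg.Agent.S0169

/-!
# Groups with two character degrees (Isaacs 12.5)
-/

set_option autoImplicit false
set_option linter.unusedSectionVars false

namespace Cfsg.Agent.Lib.Helper60.Cd

open Cfsg Cfsg.Agent.Lib

/-- Complex linear characters separate the points of a finite commutative group. -/
theorem sep {B : Type*} [Group B] [Finite B] (hB : ∀ a b : B, a * b = b * a) {b : B} (hb : b ≠ 1) :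
    ∃ lam : B →* ℂˣ, lam b ≠ 1 := by
  let _ : CommGroup B := { ‹Group B› with mul_comm := hB }
  exact Helper41.exists_char_ne_one hb

/-- Itô's theorem in `charDegree` form. -/
theorem ito {G : Type*} [Group G] [Finite G] (A : Subgroup G) [A.Normal]
    (hA : ∀ a ∈ A, ∀ b ∈ A, a * b = b * a) (χ : IrrCharacter G) :
    charDegree (χ : G → ℂ) ∣ A.index := by
  obtain ⟨n, ρ, hρ, h⟩ := χ.2
  have := hρ
  have h1 := Cfsg.Agent.S0169.result ρ A hA
  have h2 : charDegree (χ : G → ℂ) = Module.finrank ℂ (Fin n → ℂ) := by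
    rw [← h]
    simp [charDegree, Representation.char_one]
  rw [h2]; exact h1

/-- The action of `G` on the linear characters of a normal subgroup. -/
noncomputable def dualAct {G : Type*} [Group G] (N : Subgroup G) [N.Normal] :
    G →* MulAut (↥N →* ℂˣ) where
  toFun g := MulEquiv.monoidHomCongrLeft (MulAut.conjNormal g)
  map_one' := by
    ext f n
    simp only [map_one]
    rfl
  map_mul' a b := by
    ext f n
    simp [MulAut.mul_def]

theorem dualAct_apply {G : Type*} [Group G] (N : Subgroup G) [hN : N.Normal] (g : G)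
    (f : ↥N →* ℂˣ) (n : N) :
    dualAct N g f n = f ⟨g⁻¹ * n * g, by simpa using hN.conj_mem (n : G) n.2 g⁻¹⟩ := by
  show f ((MulAut.conjNormal g).symm n) = _
  congr 1
  apply Subtype.ext
  rw [← MulAut.inv_def, ← map_inv, MulAut.conjNormal_apply]
  simp

theorem mem_inertia_iff {G : Type*} [Group G] (N : Subgroup G) [hN : N.Normal] (g : G)
    (f : ↥N →* ℂˣ) : g ∈ Helper5.inertia hN (Helper19.homFun f) ↔ dualAct N g f = f := by
  rw [Helper5.mem_inertia']
  constructor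
  · intro h
    ext n
    rw [dualAct_apply]
    have := h ⟨g⁻¹ * n * g, by simpa using hN.conj_mem (n : G) n.2 g⁻¹⟩
    simp only [Helper19.homFun_apply] at this
    rw [← this]
    congr 3
    group
  · intro h n
    have h1 := DFunLike.congr_fun h ⟨g * n * g⁻¹, hN.conj_mem (n : G) n.2 g⟩
    rw [dualAct_apply] at h1
    simp only [Helper19.homFun_apply]
    rw [← h1]
    congr 3
    show g⁻¹ * (g * n * g⁻¹) * g = (n : G)
    group

/-- The nilpotent case of the two-degree theorem. -/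
theorem case_nilpotent {G : Type*} [Group G] [Finite G] (m : ℕ)
    (hcd : ∀ χ : IrrCharacter G, charDegree (χ : G → ℂ) = 1 ∨ charDegree (χ : G → ℂ) = m)
    (hm : ∃ χ : IrrCharacter G, charDegree (χ : G → ℂ) = m) (hm1 : m ≠ 1)
    (hnil : Group.IsNilpotent G) :
    ∃ p e : ℕ, p.Prime ∧ m = p ^ e ∧ ∃ P A : Subgroup G, P.Normal ∧ A.Normal ∧ IsPGroup p P ∧
      (∀ a ∈ A, ∀ b ∈ A, a * b = b * a) ∧ P ⊓ A = ⊥ ∧ P ⊔ A = ⊤ := by
  classical
  obtain ⟨p, hp, hpm⟩ := Nat.exists_prime_and_dvd hm1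
  have := Fact.mk hp
  obtain ⟨A, hA, hAcop, k, hk⟩ := Cfsg.Agent.S4456.result (G := G) p hp (fun χ hχ => by
    rcases hcd χ with h | h
    · exact absurd h hχ
    · rw [h]; exact hpm)
  obtain ⟨P⟩ : Nonempty (Sylow p G) := inferInstance
  have hPn : (P : Subgroup G).Normal := inferInstance
  have hquot : ∀ a b : G ⧸ (P : Subgroup G), a * b = b * a := by
    apply Helper5.comm_of_all_linear
    intro ψ
    obtain ⟨χ, hχ, -⟩ := Helper5.exists_irr_inflate (P : Subgroup G) ψ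
    rcases hcd χ with h | h
    · rw [← hχ]; exact h
    · exfalso
      have h1 : charDegree (ψ : G ⧸ (P : Subgroup G) → ℂ) ∣ Nat.card (G ⧸ (P : Subgroup G)) :=
        Helper82.isIrr_charDegree_dvd_card ψ.2
      rw [← hχ, h, ← Subgroup.index_eq_card] at h1
      exact P.not_dvd_index (hpm.trans h1)
  have hdisj : (P : Subgroup G) ⊓ A = ⊥ := by
    apply (Subgroup.disjoint_of_coprime_natCard _).eq_bot
    obtain ⟨n, hn⟩ := P.2.exists_card_eq
    rw [hn]
    exact (Nat.Coprime.pow_right n hAcop).symm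
  have hAab : ∀ a ∈ A, ∀ b ∈ A, a * b = b * a := by
    intro a ha b hb
    have h1 : a * b * a⁻¹ * b⁻¹ ∈ (P : Subgroup G) := by
      rw [← QuotientGroup.eq_one_iff]
      have := hquot (a : G ⧸ (P : Subgroup G)) (b : G ⧸ (P : Subgroup G))
      simp only [QuotientGroup.mk_mul, QuotientGroup.mk_inv]
      rw [this]; group
    have h2 : a * b * a⁻¹ * b⁻¹ ∈ A :=
      A.mul_mem (A.mul_mem (A.mul_mem ha hb) (A.inv_mem ha)) (A.inv_mem hb)
    have h3 : a * b * a⁻¹ * b⁻¹ ∈ (P : Subgroup G) ⊓ A := ⟨h1, h2⟩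
    rw [hdisj, Subgroup.mem_bot] at h3
    calc a * b = (a * b * a⁻¹ * b⁻¹) * (b * a) := by group
      _ = b * a := by rw [h3, one_mul]
  obtain ⟨χ, hχ⟩ := hm
  have hito := ito A hAab χ
  rw [hχ, hk] at hito
  obtain ⟨e, -, he⟩ := (Nat.dvd_prime_pow hp).mp hito
  refine ⟨p, e, hp, he, P, A, hPn, hA, P.2, hAab, hdisj, ?_⟩
  rw [← Subgroup.index_eq_one]
  have h1 : ((P : Subgroup G) ⊔ A).index ∣ (P : Subgroup G).index := Subgroup.index_dvd_of_le le_sup_left
  have h2 : ((P : Subgroup G) ⊔ A).index ∣ p ^ k := hk ▸ Subgroup.index_dvd_of_le le_sup_right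
  have h3 : ((P : Subgroup G).index).Coprime (p ^ k) :=
    Nat.Coprime.pow_right k ((Nat.Prime.coprime_iff_not_dvd hp).mpr P.not_dvd_index).symm
  exact Nat.eq_one_of_dvd_coprimes h3 h1 h2

/-- Stabilisers of non-invariant linear characters of an abelian normal Hall subgroup. -/
theorem inertia_data {G : Type*} [Group G] [Finite G] (m : ℕ)
    (hcd : ∀ χ : IrrCharacter G, charDegree (χ : G → ℂ) = 1 ∨ charDegree (χ : G → ℂ) = m)
    (hm1 : m ≠ 1) (hm0 : m ≠ 0)
    (N : Subgroup G) [hN : N.Normal] (hcop : (Nat.card N).Coprime N.index)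
    (f : ↥N →* ℂˣ) (hf : Helper5.inertia hN (Helper19.homFun f) ≠ ⊤) :
    (Helper5.inertia hN (Helper19.homFun f)).index = m ∧
      ∀ x ∈ Helper5.inertia hN (Helper19.homFun f), ∀ y ∈ Helper5.inertia hN (Helper19.homFun f),
        x * y * x⁻¹ * y⁻¹ ∈ N := by
  classical
  set T := Helper5.inertia hN (Helper19.homFun f) with hT
  have hirr : IsIrrCharacter N (Helper19.homFun f) := Helper83.isIrr_of_hom f
  have hd1 : charDegree (Helper19.homFun f) = 1 := by
    have := Helper82.isChar_one_eq (Helper82.isIrr_isChar hirr)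
    rw [(Helper19.isCharacter_homFun f).2] at this
    exact_mod_cast this.symm
  have hdeg := exists_degree_over hN hcop hirr T hT
  have hidx1 : T.index ≠ 1 := fun h => hf (Subgroup.index_eq_one.mp h)
  have hidx : T.index = m := by
    obtain ⟨χ, hχ⟩ := hdeg (Helper82.trivIrr _)
    have h1 : charDegree (Helper82.trivIrr (↥T ⧸ N.subgroupOf T)).1 = 1 := by
      have := Helper82.isChar_one_eq (Helper82.isIrr_isChar (Helper82.trivIrr (↥T ⧸ N.subgroupOf T)).2)
      have h2 : (Helper82.trivIrr (↥T ⧸ N.subgroupOf T)).1 1 = 1 := rfl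
      rw [h2] at this
      exact_mod_cast this.symm
    rw [h1, hd1, mul_one, mul_one] at hχ
    rcases hcd χ with h | h
    · exact absurd (hχ ▸ h) hidx1
    · rw [← hχ, h]
  refine ⟨hidx, ?_⟩
  have hlin : ∀ β : IrrCharacter (↥T ⧸ N.subgroupOf T), charDegree β.1 = 1 := by
    intro β
    obtain ⟨χ, hχ⟩ := hdeg β
    rw [hd1, mul_one, hidx] at hχ
    rcases hcd χ with h | h
    · rw [h] at hχ
      exact absurd (Nat.eq_one_of_mul_eq_one_right hχ.symm) hm1
    · rw [h] at hχ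
      exact (Nat.eq_of_mul_eq_mul_left (Nat.pos_of_ne_zero hm0) (by rw [mul_one]; exact hχ)).symm
  have hcomm := Helper5.comm_of_all_linear hlin
  intro x hx y hy
  have h1 := hcomm ((⟨x, hx⟩ : T) : ↥T ⧸ N.subgroupOf T) ((⟨y, hy⟩ : T) : ↥T ⧸ N.subgroupOf T)
  have h2 : (⟨x, hx⟩ : T) * ⟨y, hy⟩ * (⟨x, hx⟩ : T)⁻¹ * (⟨y, hy⟩ : T)⁻¹ ∈ N.subgroupOf T := by
    rw [← QuotientGroup.eq_one_iff]
    simp only [QuotientGroup.mk_mul, QuotientGroup.mk_inv]
    rw [h1]; group
  exact Subgroup.mem_subgroupOf.mp h2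

/-- The non-nilpotent case of the two-degree theorem. -/
theorem case_noncentral {G : Type*} [Group G] [Finite G] (m : ℕ)
    (hcd : ∀ χ : IrrCharacter G, charDegree (χ : G → ℂ) = 1 ∨ charDegree (χ : G → ℂ) = m)
    (hm1 : m ≠ 1) (hm0 : m ≠ 0)
    (N : Subgroup G) [hN : N.Normal] (hcop : (Nat.card N).Coprime N.index)
    (hNab : ∀ a ∈ N, ∀ b ∈ N, a * b = b * a) (hnil : Group.IsNilpotent (G ⧸ N))
    (f0 : ↥N →* ℂˣ) (hf0 : Helper5.inertia hN (Helper19.homFun f0) ≠ ⊤) :
    ∃ A : Subgroup G, A.Normal ∧ (∀ a ∈ A, ∀ b ∈ A, a * b = b * a) ∧ A.index = m := by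
  classical
  let S : (↥N →* ℂˣ) → Subgroup G := fun f => Helper5.inertia hN (Helper19.homFun f)
  have hS : ∀ f g, g ∈ S f ↔ dualAct N g f = f := fun f g => mem_inertia_iff N g f
  have hT : ∀ f, S f ≠ ⊤ → (S f).index = m ∧ ∀ x ∈ S f, ∀ y ∈ S f, x * y * x⁻¹ * y⁻¹ ∈ N :=
    fun f hf => inertia_data m hcd hm1 hm0 N hcop f hf
  set D : Subgroup G := Subgroup.centralizer (N : Set G) with hD
  have hDn : D.Normal := Subgroup.normal_centralizer
  have hDS : ∀ f, D ≤ S f := by
    intro f d hd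
    show d ∈ Helper5.inertia hN (Helper19.homFun f)
    rw [Helper5.mem_inertia']
    intro n
    congr 1
    apply Subtype.ext
    show d * n * d⁻¹ = n
    rw [← (Subgroup.mem_centralizer_iff.mp hd) n n.2]; group
  have hSD : ∀ g, (∀ f, g ∈ S f) → g ∈ D := by
    intro g hg
    rw [hD, Subgroup.mem_centralizer_iff]
    intro n hn
    by_contra hne
    let b : N := ⟨g * n * g⁻¹, hN.conj_mem n hn g⟩ * (⟨n, hn⟩ : N)⁻¹
    have hb : b ≠ 1 := by
      intro hb1
      have h1 : (⟨g * n * g⁻¹, hN.conj_mem n hn g⟩ : N) = ⟨n, hn⟩ := mul_inv_eq_one.mp hb1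
      have h2 : g * n * g⁻¹ = n := congrArg Subtype.val h1
      apply hne
      calc n * g = (g * n * g⁻¹) * g := by rw [h2]
        _ = g * n := by group
    obtain ⟨lam, hlam⟩ := sep (fun a b : N => Subtype.ext (hNab a a.2 b b.2)) hb
    apply hlam
    have h1 := (Helper5.mem_inertia' hN (Helper19.homFun lam) g).mp (hg lam) ⟨n, hn⟩
    simp only [Helper19.homFun_apply] at h1
    have h2 : lam ⟨g * n * g⁻¹, hN.conj_mem n hn g⟩ = lam ⟨n, hn⟩ := Units.ext h1
    show lam (⟨g * n * g⁻¹, hN.conj_mem n hn g⟩ * (⟨n, hn⟩ : N)⁻¹) = 1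
    rw [map_mul, map_inv, h2, mul_inv_cancel]
  have hND : N ≤ D := by
    intro a ha
    rw [hD, Subgroup.mem_centralizer_iff]
    intro n hn
    exact hNab n hn a ha
  -- `G / D` is abelian
  have hq : ∀ a b : G ⧸ D, a * b = b * a := by
    apply Helper5.comm_of_all_linear
    intro ψ
    by_contra hψ1
    obtain ⟨χ, hχ, -⟩ := Helper5.exists_irr_inflate D ψ
    have hψm : charDegree (ψ : G ⧸ D → ℂ) = m := by
      rcases hcd χ with h | h
      · exact absurd (hχ ▸ h) hψ1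
      · rw [← hχ, h]
    have hnilD : Group.IsNilpotent (G ⧸ D) := by
      let F : G ⧸ N →* G ⧸ D := QuotientGroup.lift N (QuotientGroup.mk' D)
        (fun x hx => (QuotientGroup.eq_one_iff x).mpr (hND hx))
      apply Group.nilpotent_of_surjective F
      intro y
      induction y using QuotientGroup.induction_on with
      | H y => exact ⟨(y : G ⧸ N), rfl⟩
    have hnt : Nontrivial (G ⧸ D) := by
      by_contra hnt
      rw [not_nontrivial_iff_subsingleton] at hnt
      have h1 : charDegree (ψ : G ⧸ D → ℂ) ∣ Nat.card (G ⧸ D) := Helper82.isIrr_charDegree_dvd_card ψ.2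
      rw [Nat.card_unique] at h1
      exact hψ1 (Nat.dvd_one.mp h1)
    obtain ⟨⟨zb, hzb⟩, hzb1⟩ := (Subgroup.ne_bot_iff_exists_ne_one.mp
      (Group.IsNilpotent.center_ne_bot (G ⧸ D)))
    obtain ⟨z, rfl⟩ := QuotientGroup.mk_surjective zb
    have hzD : z ∉ D := by
      intro h
      apply hzb1
      apply Subtype.ext
      exact (QuotientGroup.eq_one_iff z).mpr h
    obtain ⟨f, hzf⟩ : ∃ f, z ∉ S f := by
      by_contra hcon
      push Not at hcon
      exact hzD (hSD z hcon)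
    have hSf : S f ≠ ⊤ := fun h => hzf (h ▸ Subgroup.mem_top z)
    obtain ⟨hidx, hcomm⟩ := hT f hSf
    set M : Subgroup (G ⧸ D) := (S f).map (QuotientGroup.mk' D) with hM
    set B : Subgroup (G ⧸ D) := M ⊔ Subgroup.center (G ⧸ D) with hB
    have hMab : ∀ a ∈ M, ∀ b ∈ M, a * b = b * a := by
      rintro _ ⟨x, hx, rfl⟩ _ ⟨y, hy, rfl⟩
      have h1 : x * y * x⁻¹ * y⁻¹ ∈ D := hND (hcomm x hx y hy)
      have h2 := (QuotientGroup.eq_one_iff _).mpr h1
      simp only [QuotientGroup.mk_mul, QuotientGroup.mk_inv] at h2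
      show (x : G ⧸ D) * (y : G ⧸ D) = (y : G ⧸ D) * (x : G ⧸ D)
      calc (x : G ⧸ D) * (y : G ⧸ D)
          = ((x : G ⧸ D) * (y : G ⧸ D) * (x : G ⧸ D)⁻¹ * (y : G ⧸ D)⁻¹) * ((y : G ⧸ D) * (x : G ⧸ D)) := by
            group
        _ = _ := by rw [h2, one_mul]
    have hBab : ∀ a ∈ B, ∀ b ∈ B, a * b = b * a := by
      intro a ha b hb
      have ha' : a ∈ ((M ⊔ Subgroup.center (G ⧸ D) : Subgroup (G ⧸ D)) : Set (G ⧸ D)) := ha
      have hb' : b ∈ ((M ⊔ Subgroup.center (G ⧸ D) : Subgroup (G ⧸ D)) : Set (G ⧸ D)) := hb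
      rw [Subgroup.mul_normal] at ha' hb'
      obtain ⟨a1, ha1, a2, ha2, rfl⟩ := ha'
      obtain ⟨b1, hb1, b2, hb2, rfl⟩ := hb'
      have ca := Subgroup.mem_center_iff.mp ha2
      have cb := Subgroup.mem_center_iff.mp hb2
      calc a1 * a2 * (b1 * b2) = a1 * (a2 * b1) * b2 := by group
        _ = a1 * (b1 * a2) * b2 := by rw [ca b1]
        _ = (a1 * b1) * (a2 * b2) := by group
        _ = (b1 * a1) * (b2 * a2) := by rw [hMab a1 ha1 b1 hb1, ca b2]
        _ = b1 * (a1 * b2) * a2 := by group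
        _ = b1 * (b2 * a1) * a2 := by rw [cb a1]
        _ = _ := by group
    have h1 : m ≤ B.index := hψm ▸ degree_le_index_of_comm B hBab ψ
    have hMidx : M.index = m := by
      rw [hM, Subgroup.index_map, QuotientGroup.ker_mk', sup_eq_left.mpr (hDS f),
        MonoidHom.range_eq_top.mpr (QuotientGroup.mk'_surjective D), Subgroup.index_top, mul_one, hidx]
    have h2 : B.index ∣ M.index := Subgroup.index_dvd_of_le le_sup_left
    rw [hMidx] at h2
    have h3 : B.index = m := le_antisymm (Nat.le_of_dvd (Nat.pos_of_ne_zero hm0) h2) h1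
    have h4 : M = B := eq_of_le_of_index_eq le_sup_left (by rw [hMidx, h3])
    have h5 : (z : G ⧸ D) ∈ M := h4 ▸ (Subgroup.mem_sup_right hzb)
    obtain ⟨x, hx, hxz⟩ := h5
    have h6 : x⁻¹ * z ∈ D := QuotientGroup.eq.mp hxz
    apply hzf
    have : z = x * (x⁻¹ * z) := by group
    rw [this]
    exact (S f).mul_mem hx (hDS f h6)
  have hGD : ∀ x y : G, x * y * x⁻¹ * y⁻¹ ∈ D := by
    intro x y
    rw [← QuotientGroup.eq_one_iff]
    simp only [QuotientGroup.mk_mul, QuotientGroup.mk_inv]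
    rw [hq (x : G ⧸ D) (y : G ⧸ D)]; group
  have hSn : ∀ f, (S f).Normal := by
    intro f
    constructor
    intro s hs g
    have : g * s * g⁻¹ = (g * s * g⁻¹ * s⁻¹) * s := by group
    rw [this]
    exact (S f).mul_mem (hDS f (hGD g s)) hs
  have H1 : ∀ f, S f = ⊤ ∨ ((S f).Normal ∧ (S f).index = m) := by
    intro f
    by_cases h : S f = ⊤
    · exact Or.inl h
    · exact Or.inr ⟨hSn f, (hT f h).1⟩
  have he : ∀ f : ↥N →* ℂˣ, f ^ (Nat.card N) = 1 := by
    intro f
    ext n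
    rw [MonoidHom.pow_apply, ← map_pow, pow_card_eq_one']
    simp
  have H2 : ∀ g f, dualAct N (g ^ N.index) f = f := by
    intro g f
    rw [← hS]
    exact hDS f (hND (Subgroup.pow_index_mem N g))
  have hle : ∀ f, S f0 ≤ S f := by
    intro f
    by_cases h : S f = ⊤
    · rw [h]; exact le_top
    · exact stab_le (dualAct N) S hS m H1 N.index (Nat.card N) hcop.symm he H2 f0 f hf0 h
  have hAD : S f0 ≤ D := fun g hg => hSD g (fun f => hle f hg)
  refine ⟨S f0, hSn f0, ?_, (hT f0 hf0).1⟩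
  intro x hx y hy
  have hc : x * y * x⁻¹ * y⁻¹ ∈ N := (hT f0 hf0).2 x hx y hy
  apply comm_of_central_coprime N.index (Nat.card N) hcop.symm x y _ rfl
  · exact (Subgroup.mem_centralizer_iff.mp (hAD hx)) _ hc
  · have := pow_card_eq_one' (G := N) (x := ⟨_, hc⟩)
    exact congrArg Subtype.val this
  · exact (Subgroup.mem_centralizer_iff.mp (hAD hy)) _ (Subgroup.pow_index_mem N x)

/-- **Isaacs 12.5.**  A refined form: either `G` has an abelian normal subgroup of index `m`, or `G`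
is nilpotent (and then the direct decomposition holds). -/
theorem two_degrees' {G : Type*} [Group G] [Finite G] (m : ℕ)
    (hcd : ∀ χ : IrrCharacter G, charDegree (χ : G → ℂ) = 1 ∨ charDegree (χ : G → ℂ) = m)
    (hm : ∃ χ : IrrCharacter G, charDegree (χ : G → ℂ) = m) (hm1 : m ≠ 1) :
    (∃ A : Subgroup G, A.Normal ∧ (∀ a ∈ A, ∀ b ∈ A, a * b = b * a) ∧ A.index = m) ∨
      Group.IsNilpotent G := by
  classical
  have hm0 : m ≠ 0 := by
    obtain ⟨χ, hχ⟩ := hm
    rw [← hχ]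
    exact (Helper82.isIrr_charDegree_pos χ.2).ne'
  obtain ⟨N, hN, hNcop, hnil, hidx⟩ := exists_hall_inf (G := G) m.primeFactors
    (fun p hp => Nat.prime_of_mem_primeFactors hp)
    (fun p hp => Cfsg.Agent.S4456.result (G := G) p (Nat.prime_of_mem_primeFactors hp) (fun χ hχ => by
      rcases hcd χ with h | h
      · exact absurd h hχ
      · rw [h]; exact Nat.dvd_of_mem_primeFactors hp))
  have hcop : (Nat.card N).Coprime N.index := by
    apply Nat.coprime_of_dvd
    intro q hq h1 h2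
    have h3 := hNcop q (hidx q hq h2)
    exact hq.one_lt.ne' (Nat.eq_one_of_dvd_coprimes h3 h1 dvd_rfl)
  have hlin : ∀ θ : IrrCharacter N, charDegree (θ : N → ℂ) = 1 := by
    intro θ
    obtain ⟨χ, hχ⟩ := Helper5.exists_irr_over_dvd N θ
    rcases hcd χ with h | h
    · rw [h] at hχ; exact Nat.dvd_one.mp hχ
    · rw [h] at hχ
      by_contra hne
      obtain ⟨q, hq, hqd⟩ := Nat.exists_prime_and_dvd hne
      have h1 : q ∈ m.primeFactors := Nat.mem_primeFactors.mpr ⟨hq, hqd.trans hχ, hm0⟩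
      have h2 : q ∣ Nat.card N := hqd.trans (Helper82.isIrr_charDegree_dvd_card θ.2)
      exact hq.one_lt.ne' (Nat.eq_one_of_dvd_coprimes (hNcop q h1) h2 dvd_rfl)
  have hNab : ∀ a ∈ N, ∀ b ∈ N, a * b = b * a := by
    intro a ha b hb
    exact congrArg Subtype.val (Helper5.comm_of_all_linear hlin ⟨a, ha⟩ ⟨b, hb⟩)
  by_cases hall : ∀ f : ↥N →* ℂˣ, Helper5.inertia hN (Helper19.homFun f) = ⊤
  · right
    have hcen : N ≤ Subgroup.center G := by
      intro n hn
      rw [Subgroup.mem_center_iff]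
      intro g
      by_contra hne
      let b : N := ⟨g * n * g⁻¹, hN.conj_mem n hn g⟩ * (⟨n, hn⟩ : N)⁻¹
      have hb : b ≠ 1 := by
        intro hb1
        have h1 : (⟨g * n * g⁻¹, hN.conj_mem n hn g⟩ : N) = ⟨n, hn⟩ := mul_inv_eq_one.mp hb1
        have h2 : g * n * g⁻¹ = n := congrArg Subtype.val h1
        apply hne
        calc g * n = (g * n * g⁻¹) * g := by group
          _ = n * g := by rw [h2]
      obtain ⟨lam, hlam⟩ := sep (fun a b : N => Subtype.ext (hNab a a.2 b b.2)) hb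
      apply hlam
      have h1 := (Helper5.mem_inertia' hN (Helper19.homFun lam) g).mp
        (hall lam ▸ Subgroup.mem_top g) ⟨n, hn⟩
      simp only [Helper19.homFun_apply] at h1
      have h2 : lam ⟨g * n * g⁻¹, hN.conj_mem n hn g⟩ = lam ⟨n, hn⟩ := Units.ext h1
      show lam (⟨g * n * g⁻¹, hN.conj_mem n hn g⟩ * (⟨n, hn⟩ : N)⁻¹) = 1
      rw [map_mul, map_inv, h2, mul_inv_cancel]
    apply Subgroup.isNilpotent_of_ker_le_center (QuotientGroup.mk' N)
    rw [QuotientGroup.ker_mk']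
    exact hcen
  · left
    push Not at hall
    obtain ⟨f0, hf0⟩ := hall
    exact case_noncentral m hcd hm1 hm0 N hcop hNab hnil f0 hf0

/-- **Isaacs 12.5.** -/
theorem two_degrees {G : Type*} [Group G] [Finite G] (m : ℕ)
    (hcd : ∀ χ : IrrCharacter G, charDegree (χ : G → ℂ) = 1 ∨ charDegree (χ : G → ℂ) = m)
    (hm : ∃ χ : IrrCharacter G, charDegree (χ : G → ℂ) = m) (hm1 : m ≠ 1) :
    (∃ A : Subgroup G, A.Normal ∧ (∀ a ∈ A, ∀ b ∈ A, a * b = b * a) ∧ A.index = m) ∨
      ∃ p e : ℕ, p.Prime ∧ m = p ^ e ∧ ∃ P A : Subgroup G, P.Normal ∧ A.Normal ∧ IsPGroup p P ∧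
        (∀ a ∈ A, ∀ b ∈ A, a * b = b * a) ∧ P ⊓ A = ⊥ ∧ P ⊔ A = ⊤ := by
  rcases two_degrees' m hcd hm hm1 with h | h
  · exact Or.inl h
  · exact Or.inr (case_nilpotent m hcd hm hm1 h)

end Cfsg.Agent.Lib.Helper60.Cd
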