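import Mathlib
import Cfsg.Agent.S0175
import Cfsg.Agent.S0176
import Cfsg.Agent.Lib.Helper60.CdTwo

/-!
# The Taketa step, and `G''=1` for groups with two character degrees (Isaacs 12.6)
-/

set_option autoImplicit false
set_option linter.unusedSectionVars false

namespace Cfsg.Agent.Lib.Helper60.Cd

open Cfsg Cfsg.Agent.Lib Cfsg.Agent.Lib.Helper5 Cfsg.Agent.Lib.Helper20
open scoped commutatorElement

/-- **Taketa step.**  If `K ⊴ G` lies in the kernel of every irreducible character of degree `≤ d`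
and `χ = λ^G` is monomial of degree `d + 1`, then `[K, K] ≤ ker χ`. -/
theorem taketa_step {G : Type*} [Group G] [Fintype G] (K : Subgroup G) [hKn : K.Normal] (d : ℕ)
    (hK : ∀ χ : G → ℂ, IsIrrCharacter G χ → ∀ e : ℕ, χ 1 = e → e ≤ d → ∀ n ∈ K, χ n = χ 1)
    (H : Subgroup G) (lam : H →* ℂˣ) (hidx : H.index = d + 1) :
    ∀ n ∈ ⁅K, K⁆, indFun H (fun h => (lam h : ℂ)) n = indFun H (fun h => (lam h : ℂ)) 1 := by
  intro n hn
  have := Fintype.ofFinite H
  have hπ : Cfsg.IsCharacter G (Cfsg.indFun H (fun _ => (1 : ℂ))) :=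
    Cfsg.Agent.Lib.Helper19.isCharacter_indFun H _ isCharacter_one
  have hone : Cfsg.IsIrrCharacter G (fun _ => (1 : ℂ)) := Cfsg.Agent.Lib.Helper4.isIrrCharacter_one
  have hπ1 : Cfsg.classInner (Cfsg.indFun H (fun _ => (1 : ℂ))) (fun _ => (1 : ℂ)) ≠ 0 := by
    rw [Cfsg.Agent.Lib.Helper19.frobenius_reciprocity H _ _
      (isClassFunction_of_isCharacter (isCharacter_of_isIrrCharacter hone))]
    have : Cfsg.classInner (fun _ : H => (1 : ℂ)) (fun _ : H => (1 : ℂ)) = 1 :=
      classInner_irr_self Cfsg.Agent.Lib.Helper4.isIrrCharacter_one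
    rw [this]
    exact one_ne_zero
  obtain ⟨Δ, hΔ, hsum⟩ := exists_add_of_constituent hπ hone hπ1
  have hΔ1 : Δ 1 = d := by
    have h1 := congrFun hsum 1
    rw [indFun_one, hidx, Pi.add_apply] at h1
    push_cast at h1
    linear_combination -h1
  have hDH : K ≤ H := by
    intro m hm
    apply Cfsg.Agent.S0175.mem_of_indFun_one_eq
    rw [hsum, Pi.add_apply, Pi.add_apply]
    congr 1
    exact Cfsg.Agent.S0175.char_const_of_irr_const d m
      (fun χ hχ e he hle => hK χ hχ e he hle m hm) hΔ hΔ1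
  have hker : ⁅K, K⁆ ≤ (lam.ker).map H.subtype := by
    rw [Subgroup.commutator_le]
    intro a ha b hb
    refine ⟨(⟨a, hDH ha⟩ : H) * ⟨b, hDH hb⟩ * (⟨a, hDH ha⟩ : H)⁻¹ * (⟨b, hDH hb⟩ : H)⁻¹, ?_, ?_⟩
    · rw [SetLike.mem_coe, MonoidHom.mem_ker, map_mul, map_mul, map_mul, map_inv, map_inv,
        mul_comm (lam ⟨a, hDH ha⟩) (lam ⟨b, hDH hb⟩)]
      simp
    · rw [commutatorElement_def]
      rfl
  have hnorm : (⁅K, K⁆ : Subgroup G).Normal := Subgroup.commutator_normal K K
  have hval : ∀ x : G, Cfsg.extendByZero H (fun h => (lam h : ℂ)) (x⁻¹ * n * x) = 1 := by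
    intro x
    have h1 : x⁻¹ * n * x⁻¹⁻¹ ∈ ⁅K, K⁆ := hnorm.conj_mem n hn x⁻¹
    rw [inv_inv] at h1
    obtain ⟨k, hk, hkx⟩ := hker h1
    rw [← hkx]
    have h2 : Cfsg.extendByZero H (fun h => (lam h : ℂ)) (H.subtype k) = (lam k : ℂ) :=
      Cfsg.Agent.Lib.Helper19.extendByZero_coe H _ k
    rw [h2, MonoidHom.mem_ker.mp hk, Units.val_one]
  have hval1 : ∀ x : G, Cfsg.extendByZero H (fun h => (lam h : ℂ)) (x⁻¹ * 1 * x) = 1 := by
    intro x
    have h1 : x⁻¹ * 1 * x = H.subtype 1 := by simp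
    rw [h1]
    have h2 : Cfsg.extendByZero H (fun h => (lam h : ℂ)) (H.subtype 1) = (lam 1 : ℂ) :=
      Cfsg.Agent.Lib.Helper19.extendByZero_coe H _ 1
    rw [h2, map_one, Units.val_one]
  change (Nat.card H : ℂ)⁻¹ * ∑ x : G, Cfsg.extendByZero H (fun h => (lam h : ℂ)) (x⁻¹ * n * x)
    = (Nat.card H : ℂ)⁻¹ * ∑ x : G, Cfsg.extendByZero H (fun h => (lam h : ℂ)) (x⁻¹ * 1 * x)
  simp_rw [hval, hval1]

/-- An element lying in the kernel of every irreducible character is trivial. -/
theorem eq_one_of_forall_irr {G : Type*} [Group G] [Finite G] (n : G)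
    (h : ∀ χ : IrrCharacter G, (χ : G → ℂ) n = (χ : G → ℂ) 1) : n = 1 := by
  have h1 : IsConj n 1 := (Cfsg.Agent.S0136.result n 1).mpr h
  exact isConj_one_left.mp h1

/-- If `G/A` has order `m ≥ 2` and degrees in `{1, m}` then it is abelian. -/
theorem commutator_le_of_index {G : Type*} [Group G] [Finite G] (m : ℕ)
    (hcd : ∀ χ : IrrCharacter G, charDegree (χ : G → ℂ) = 1 ∨ charDegree (χ : G → ℂ) = m)
    (hm1 : m ≠ 1) (A : Subgroup G) [hA : A.Normal] (hidx : A.index = m) : commutator G ≤ A := by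
  classical
  have hq : ∀ a b : G ⧸ A, a * b = b * a := by
    apply Helper5.comm_of_all_linear
    intro ψ
    obtain ⟨χ, hχ, -⟩ := Helper5.exists_irr_inflate A ψ
    rcases hcd χ with h | h
    · rw [← hχ]; exact h
    · exfalso
      have hcard : Nat.card (G ⧸ A) = m := by rw [← Subgroup.index_eq_card, hidx]
      have hnt : Nontrivial (G ⧸ A) := by
        by_contra hnt
        rw [not_nontrivial_iff_subsingleton] at hnt
        rw [Nat.card_unique] at hcard
        exact hm1 hcard.symm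
      obtain ⟨g, hg⟩ := exists_ne (1 : G ⧸ A)
      have h1 := degree_le_index_of_comm (Subgroup.zpowers g) (by
        intro a ha b hb
        obtain ⟨i, rfl⟩ := Subgroup.mem_zpowers_iff.mp ha
        obtain ⟨j, rfl⟩ := Subgroup.mem_zpowers_iff.mp hb
        rw [← zpow_add, ← zpow_add, add_comm]) ψ
      rw [← hχ, h] at h1
      have h2 := (Subgroup.zpowers g).card_mul_index
      rw [hcard, Nat.card_zpowers] at h2
      have h3 : 2 ≤ orderOf g := by
        have h4 : orderOf g ≠ 1 := fun h => hg (orderOf_eq_one_iff.mp h)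
        have h5 : 0 < orderOf g := orderOf_pos g
        omega
      have h6 : 0 < m := by
        rw [← hcard]; exact Nat.card_pos
      nlinarith
  rw [commutator_def, Subgroup.commutator_le]
  intro a _ b _
  rw [← QuotientGroup.eq_one_iff, commutatorElement_def]
  simp only [QuotientGroup.mk_mul, QuotientGroup.mk_inv]
  rw [hq (a : G ⧸ A) (b : G ⧸ A)]; group

/-- **Isaacs 12.6.**  Two character degrees force `G'' = 1`. -/
theorem two_degrees_derived {G : Type*} [Group G] [Finite G] (m : ℕ)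
    (hcd : ∀ χ : IrrCharacter G, charDegree (χ : G → ℂ) = 1 ∨ charDegree (χ : G → ℂ) = m)
    (hm : ∃ χ : IrrCharacter G, charDegree (χ : G → ℂ) = m) (hm1 : m ≠ 1) :
    ∀ a ∈ commutator G, ∀ b ∈ commutator G, a * b = b * a := by
  classical
  have := Fintype.ofFinite G
  have hm0 : m ≠ 0 := by
    obtain ⟨χ, hχ⟩ := hm
    rw [← hχ]
    exact (Helper82.isIrr_charDegree_pos χ.2).ne'
  rcases two_degrees' m hcd hm hm1 with ⟨A, hA, hAab, hidx⟩ | hnil
  · have h1 := commutator_le_of_index m hcd hm1 A hidx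
    exact fun a ha b hb => hAab a (h1 ha) b (h1 hb)
  · have hker : ∀ n ∈ ⁅commutator G, commutator G⁆, n = 1 := by
      intro n hn
      apply eq_one_of_forall_irr
      intro χ
      have hdeg := Helper82.isChar_one_eq (Helper82.isIrr_isChar χ.2)
      rcases hcd χ with h | h
      · have h1 : (χ : G → ℂ) 1 = 1 := by rw [hdeg, h]; simp
        exact (Helper82.isIrr_linear_iff χ.2).mp h1 n
          (Subgroup.commutator_le_left (commutator G) (commutator G) hn)
      · obtain ⟨H, lam, hχ⟩ := Cfsg.Agent.S0176.result (χ : G → ℂ) χ.2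
        rw [hχ]
        obtain ⟨d, rfl⟩ : ∃ d, m = d + 1 := Nat.exists_eq_succ_of_ne_zero hm0
        apply taketa_step (commutator G) d _ H lam _ n hn
        · intro ψ hψ e he hle x hx
          have h2 := Helper82.isChar_one_eq (Helper82.isIrr_isChar hψ)
          have h3 : charDegree ψ = e := by
            rw [he] at h2; exact_mod_cast h2.symm
          have h4 : ψ 1 = 1 := by
            rcases hcd ⟨ψ, hψ⟩ with h5 | h5
            · rw [h2]
              have : charDegree ψ = 1 := h5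
              rw [this]; simp
            · exfalso
              have : charDegree ψ = d + 1 := h5
              omega
          exact (Helper82.isIrr_linear_iff hψ).mp h4 x hx
        · rw [hχ, Helper82.indFun_one, map_one, Units.val_one, mul_one, ← hχ, h] at hdeg
          exact_mod_cast hdeg
    intro a ha b hb
    have h1 : ⁅a, b⁆ = 1 := hker _ (Subgroup.commutator_mem_commutator ha hb)
    exact commutatorElement_eq_one_iff_mul_comm.mp h1

end Cfsg.Agent.Lib.Helper60.Cd
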