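import Mathlib

set_option autoImplicit false

namespace Cfsg.Agent.Lib.Helper60

/-- Lifting `p`-subgroups through a surjection: a `p`-subgroup `X` of the image containing the image
of a `p`-subgroup `D` is the image of a `p`-subgroup containing `D`. -/
theorem exists_pGroup_map_eq {G G' : Type*} [Group G] [Group G'] [Finite G] (f : G →* G')
    (hf : Function.Surjective f) (p : ℕ) [Fact p.Prime] (X : Subgroup G') (hX : IsPGroup p X)
    (D : Subgroup G) (hD : IsPGroup p D) (hDX : D.map f ≤ X) :
    ∃ P : Subgroup G, IsPGroup p P ∧ D ≤ P ∧ P.map f = X := by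
  have hDA : D ≤ X.comap f := Subgroup.map_le_iff_le_comap.mp hDX
  have hD' : IsPGroup p (D.subgroupOf (X.comap f)) := hD.comap_subtype
  obtain ⟨Q, hQ⟩ := hD'.exists_le_sylow
  refine ⟨(Q : Subgroup (X.comap f)).map (X.comap f).subtype, Q.2.map _, ?_, ?_⟩
  · intro d hd
    exact ⟨⟨d, hDA hd⟩, hQ (Subgroup.mem_subgroupOf.mpr hd), rfl⟩
  · have hg : Function.Surjective (f.subgroupComap X) :=
      f.subgroupComap_surjective_of_surjective X hf
    have htop : IsPGroup p (⊤ : Subgroup X) := hX.to_subgroup _
    have h1 : (⊤ : Subgroup X) = (Q : Subgroup (X.comap f)).map (f.subgroupComap X) :=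
      (Q.mapSurjective hg).is_maximal' htop le_top
    have h2 : ((Q : Subgroup (X.comap f)).map (X.comap f).subtype).map f
        = ((Q : Subgroup (X.comap f)).map (f.subgroupComap X)).map X.subtype := by
      rw [Subgroup.map_map, Subgroup.map_map]
      rfl
    rw [h2, ← h1, ← MonoidHom.range_eq_map, Subgroup.range_subtype]

/-- A Sylow subgroup of the image containing the image of a `p`-subgroup `D` is the image of a Sylow
subgroup containing `D`. -/
theorem exists_sylow_map_eq {G G' : Type*} [Group G] [Group G'] [Finite G] (f : G →* G')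
    (hf : Function.Surjective f) (p : ℕ) [Fact p.Prime] (X : Sylow p G')
    (D : Subgroup G) (hD : IsPGroup p D) (hDX : D.map f ≤ X) :
    ∃ P : Sylow p G, D ≤ P ∧ (P : Subgroup G).map f = X := by
  obtain ⟨P₀, hP₀, hDP, hmap⟩ := exists_pGroup_map_eq f hf p X X.2 D hD hDX
  obtain ⟨P, hP⟩ := hP₀.exists_le_sylow
  refine ⟨P, hDP.trans hP, ?_⟩
  refine X.is_maximal' (P.2.map f) ?_
  rw [← hmap]
  exact Subgroup.map_mono hP

end Cfsg.Agent.Lib.Helper60
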